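import Cfsg.Agent.H7.Li.TitsD

set_option autoImplicit false
set_option maxRecDepth 100000

namespace CfsgH7.Tits

open Pk Subgroup Cfsg.Lie
open scoped commutatorElement

theorem f7 : one2 2 211 52 Ms I (wordAt Rf 7) = true := by decide +kernel
theorem f14 : one2 2 211 52 Ms I (wordAt Rf 14) = true := by decide +kernel
theorem f3 : one2 2 211 52 Ms I (wordAt Rf 3) = true := by decide +kernel
theorem e5 : one2 2 211 52 Ms I (wordAt E 5) = true := by decide +kernel
theorem i8 : one2 2 211 52 Ms I [2 * 8, 2 * 8 + 1] = true := by decide +kernel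
theorem i5 : one2 2 211 52 Ms I [2 * 5, 2 * 5 + 1] = true := by decide +kernel
theorem i16 : one2 2 211 52 Ms I [2 * 16, 2 * 16 + 1] = true := by decide +kernel
theorem i12 : one2 2 211 52 Ms I [2 * 12, 2 * 12 + 1] = true := by decide +kernel
theorem i0 : one2 2 211 52 Ms I [2 * 0, 2 * 0 + 1] = true := by decide +kernel
theorem h18 : ∀ k < 6, wordAt Ms (18 + k) = pm 211 52 (Pk.ent 2 211 Ms (18 + k)) := by decide +kernel
theorem f1 : one2 2 211 52 Ms I (wordAt Rf 1) = true := by decide +kernel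
instance : NeZero chevF4.rank := ⟨by decide⟩
instance : NeZero chevF4.nroots := ⟨by decide⟩
noncomputable def xc (f : Nat → Nat → Nat) (r c : Nat) : Bool :=
  nall (fun i => nall (fun j => Nat.beq (f i j) ((arP 2).ev 2 c (xP chevF4 r
    (pxS (Fin.ofNat _) (Fin.ofNat _) chevF4.rank i) (pxS (Fin.ofNat _) (Fin.ofNat _) chevF4.rank j)))) 52) 52
theorem x33 : xc (Pk.ent 2 211 Ms (2 * 7)) 33 1 = true := by decide +kernel
theorem x24 : xc (Pk.ent 2 211 Ms (2 * 8)) 24 1 = true := by decide +kernel
theorem x14 : xc (Pk.ent 2 211 Ms (2 * 9)) 14 1 = true := by decide +kernel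
theorem x23 : xc (Pk.ent 2 211 Ms (2 * 10)) 23 1 = true := by decide +kernel
theorem x27 : xc (Pk.ent 2 211 Ms (2 * 11)) 27 1 = true := by decide +kernel
theorem x25 : xc (Pk.ent 2 211 Ms (2 * 12)) 25 1 = true := by decide +kernel
theorem x28 : xc (Pk.ent 2 211 Ms (2 * 13)) 28 1 = true := by decide +kernel
theorem x20 : xc (Pk.ent 2 211 Ms (2 * 14)) 20 1 = true := by decide +kernel
theorem x22 : xc (Pk.ent 2 211 Ms (2 * 15)) 22 1 = true := by decide +kernel
theorem x19 : xc (Pk.ent 2 211 Ms (2 * 16)) 19 1 = true := by decide +kernel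
theorem x30 : xc idF 30 0 = true := by decide +kernel
theorem x17 : xc idF 17 0 = true := by decide +kernel

end CfsgH7.Tits
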