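import Cfsg.Agent.H7.Li.TitsD

set_option autoImplicit false
set_option maxRecDepth 100000

namespace CfsgH7.Tits

open Pk Subgroup Cfsg.Lie
open scoped commutatorElement

theorem e1 : one2 2 211 52 Ms I (wordAt E 1) = true := by decide +kernel
theorem f6 : one2 2 211 52 Ms I (wordAt Rf 6) = true := by decide +kernel
theorem f15 : one2 2 211 52 Ms I (wordAt Rf 15) = true := by decide +kernel
theorem f2 : one2 2 211 52 Ms I (wordAt Rf 2) = true := by decide +kernel
theorem e4 : one2 2 211 52 Ms I (wordAt E 4) = true := by decide +kernel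
theorem i6 : one2 2 211 52 Ms I [2 * 6, 2 * 6 + 1] = true := by decide +kernel
theorem i2 : one2 2 211 52 Ms I [2 * 2, 2 * 2 + 1] = true := by decide +kernel
theorem i13 : one2 2 211 52 Ms I [2 * 13, 2 * 13 + 1] = true := by decide +kernel
theorem i1 : one2 2 211 52 Ms I [2 * 1, 2 * 1 + 1] = true := by decide +kernel
theorem h24 : ∀ k < 6, wordAt Ms (24 + k) = pm 211 52 (Pk.ent 2 211 Ms (24 + k)) := by decide +kernel
theorem f11 : one2 2 211 52 Ms I (wordAt Rf 11) = true := by decide +kernel

end CfsgH7.Tits
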