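import Cfsg.Agent.H7.Li.TitsD

set_option autoImplicit false
set_option maxRecDepth 100000

namespace CfsgH7.Tits

open Pk Subgroup Cfsg.Lie
open scoped commutatorElement

theorem e2 : one2 2 211 52 Ms I (wordAt E 2) = true := by decide +kernel
theorem f9 : one2 2 211 52 Ms I (wordAt Rf 9) = true := by decide +kernel
theorem f4 : one2 2 211 52 Ms I (wordAt Rf 4) = true := by decide +kernel
theorem f8 : one2 2 211 52 Ms I (wordAt Rf 8) = true := by decide +kernel
theorem e6 : one2 2 211 52 Ms I (wordAt E 6) = true := by decide +kernel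
theorem e3 : one2 2 211 52 Ms I (wordAt E 3) = true := by decide +kernel
theorem i4 : one2 2 211 52 Ms I [2 * 4, 2 * 4 + 1] = true := by decide +kernel
theorem i15 : one2 2 211 52 Ms I [2 * 15, 2 * 15 + 1] = true := by decide +kernel
theorem i11 : one2 2 211 52 Ms I [2 * 11, 2 * 11 + 1] = true := by decide +kernel
theorem h6 : ∀ k < 6, wordAt Ms (6 + k) = pm 211 52 (Pk.ent 2 211 Ms (6 + k)) := by decide +kernel
theorem h12 : ∀ k < 6, wordAt Ms (12 + k) = pm 211 52 (Pk.ent 2 211 Ms (12 + k)) := by decide +kernel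
theorem f0 : one2 2 211 52 Ms I (wordAt Rf 0) = true := by decide +kernel

end CfsgH7.Tits
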