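import Cfsg.Agent.H7.Li.TitsD

set_option autoImplicit false
set_option maxRecDepth 100000

namespace CfsgH7.Tits

open Pk Subgroup Cfsg.Lie
open scoped commutatorElement

theorem e0 : one2 2 211 52 Ms I (wordAt E 0) = true := by decide +kernel
theorem f10 : one2 2 211 52 Ms I (wordAt Rf 10) = true := by decide +kernel
theorem f5 : one2 2 211 52 Ms I (wordAt Rf 5) = true := by decide +kernel
theorem f13 : one2 2 211 52 Ms I (wordAt Rf 13) = true := by decide +kernel
theorem f12 : one2 2 211 52 Ms I (wordAt Rf 12) = true := by decide +kernel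
theorem i9 : one2 2 211 52 Ms I [2 * 9, 2 * 9 + 1] = true := by decide +kernel
theorem i7 : one2 2 211 52 Ms I [2 * 7, 2 * 7 + 1] = true := by decide +kernel
theorem i3 : one2 2 211 52 Ms I [2 * 3, 2 * 3 + 1] = true := by decide +kernel
theorem i14 : one2 2 211 52 Ms I [2 * 14, 2 * 14 + 1] = true := by decide +kernel
theorem i10 : one2 2 211 52 Ms I [2 * 10, 2 * 10 + 1] = true := by decide +kernel
theorem h30 : ∀ k < 4, wordAt Ms (30 + k) = pm 211 52 (Pk.ent 2 211 Ms (30 + k)) := by decide +kernel
theorem h0 : ∀ k < 6, wordAt Ms (0 + k) = pm 211 52 (Pk.ent 2 211 Ms (0 + k)) := by decide +kernel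

end CfsgH7.Tits
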