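import Cfsg.Agent.H7.Li.TitsM
import Cfsg.Agent.S1068

/-! The derived group of the twisted group of type F4 over the field with two elements. -/

set_option autoImplicit false
set_option maxRecDepth 100000

namespace CfsgH7.Tits

open Pk Subgroup Cfsg.Lie
open scoped commutatorElement

def eI : chevF4.Idx ≃ Fin 52 := finSumFinEquiv (m := 4) (n := 48)
theorem eI_val (a : chevF4.Idx) : (eI a).val = ixD chevF4 a := by
  rcases a with a | a <;> rfl
noncomputable def ψ : Matrix (Fin 52) (Fin 52) (ZMod 2) →* Matrix chevF4.Idx chevF4.Idx (ZMod 2) :=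
  (Matrix.reindexAlgEquiv (ZMod 2) (ZMod 2) eI.symm).toMonoidHom
theorem xlink {f : Nat → Nat → Nat} {r c : Nat} (h : xc f r c = true) (hr : r < chevF4.nroots) (hc : c < 2) :
    chevF4.x (ZMod 2) r (c : Nat) = ψ (toM 2 52 f) := by
  ext a b
  have J := ixD_ok chevF4
  have h1 := Nat.eq_of_beq_eq_true (nall_iff.1 (nall_iff.1 h _ (J.lt a)) _ (J.lt b))
  rw [J.px_ix, J.px_ix] at h1
  show _ = ((f (eI a).val (eI b).val : Nat) : ZMod 2)
  rw [eI_val, eI_val, h1, ((arP_ok (F := ZMod 2) 2 (by norm_num)).ev (p := 2) (by norm_num) le_rfl (fun _ _ => rfl) hc _).2,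
    ChevalleyDatum.x, dif_pos hr, xMat_eq]
noncomputable def γ (k : Nat) : GL chevF4.Idx (ZMod 2) := Units.map ψ (gen2 2 211 52 Ms k)
theorem sγ : Sat γ (Rf ++ E) := hc.1.map (Units.map ψ)
theorem xg {k r : Nat} (h : xc (Pk.ent 2 211 Ms (2 * k)) r 1 = true) (hk : k < 17 := by norm_num)
    (hr : r < chevF4.nroots := by decide) : chevF4.x (ZMod 2) r 1 = (γ k).val := by
  rw [← Nat.cast_one, xlink h hr (by norm_num), ← hc.2 k hk]; rfl
theorem xz {r : Nat} (h : xc idF r 0 = true) (hr : r < chevF4.nroots := by decide) : chevF4.x (ZMod 2) r 0 = 1 := by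
  rw [← Nat.cast_zero, xlink h hr (by norm_num), toM_id, map_one]
theorem df {j : Nat} {w : List Nat} (h : (2 * j + 1) :: w ∈ E) : γ j = wprod γ w := by
  have := sγ _ (List.mem_append_right _ h)
  rwa [wprod_cons, letter_odd, inv_mul_eq_one] at this
abbrev GG : Subgroup (GL chevF4.Idx (ZMod 2)) := twistedF4 (ZMod 2) 1
theorem w2 (a b : Nat) : wprod γ [2 * a, 2 * b] = γ a * γ b := by simp [wprod_cons, letter_even]
theorem w3 (a b c : Nat) : wprod γ [2 * a, 2 * b, 2 * c] = γ a * (γ b * γ c) := by simp [wprod_cons, letter_even]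
theorem g3 : γ 3 ∈ GG := subset_closure ⟨_, .inl ⟨1, .inl rfl⟩, by
  rw [df (w := [2 * 7, 2 * 8]) (by decide), w2, Units.val_mul, ← xg x33, ← xg x24]
  simp [ChevalleyDatum.wordMat, f4PairWord, f4p1, f4p4]⟩
theorem g4 : γ 4 ∈ GG := subset_closure ⟨_, .inl ⟨1, .inr rfl⟩, by
  rw [df (w := [2 * 9, 2 * 10]) (by decide), w2, Units.val_mul, ← xg x14, ← xg x23]
  simp [ChevalleyDatum.wordMat, f4PairWord, f4m1, f4m4]⟩
theorem g5 : γ 5 ∈ GG := subset_closure ⟨_, .inr ⟨1, 0, .inl rfl⟩, by
  rw [df (w := [2 * 11, 2 * 12, 2 * 13]) (by decide), w3, Units.val_mul, Units.val_mul, ← xg x27, ← xg x25, ← xg x28]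
  simp [ChevalleyDatum.wordMat, b2ClassWord, f4a, f4b, f4ab, f4aab, xz x30]⟩
theorem g6 : γ 6 ∈ GG := subset_closure ⟨_, .inr ⟨1, 0, .inr rfl⟩, by
  rw [df (w := [2 * 14, 2 * 15, 2 * 16]) (by decide), w3, Units.val_mul, Units.val_mul, ← xg x20, ← xg x22, ← xg x19]
  simp [ChevalleyDatum.wordMat, b2ClassWord, f4ma, f4mb, f4mab, f4maab, xz x17]⟩
theorem gw {w : List Nat} (h : ∀ x ∈ w, 3 ≤ x / 2 ∧ x / 2 ≤ 6) : wprod γ w ∈ GG := wprod_mem fun x hx => by
  obtain ⟨h1, h2⟩ := h x hx
  generalize x / 2 = y at h1 h2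
  interval_cases y
  exacts [g3, g4, g5, g6]
noncomputable abbrev XX : Subgroup (GL chevF4.Idx (ZMod 2)) := genW γ (gensW 3)
theorem le : XX ≤ GG := gensW_le fun j hj => by
  interval_cases j
  · rw [df (w := [10,6,11,12,11,8,10,12,8]) (by decide)]; exact gw (by decide)
  · rw [df (w := [12,8,12,8,12,11,6,10,6,8,10,6,10,12,8,12,8,13]) (by decide)]; exact gw (by decide)
  · rw [df (w := [13,13,8,13,8,12,8,13,8,13]) (by decide)]; exact gw (by decide)
theorem sR : Sat γ Rf := fun r hr => sγ r (List.mem_append_left _ hr)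
theorem sg_ne {G : Type*} [Group G] {g : Nat → G} {U : List (List Nat)} {k : Nat} (h : wprod g (wordAt U k) ≠ 1) :
    subGen g U k ≠ 1 := fun e => h (congrArg Subtype.val e)
theorem mX : Mdl XX 3 Rf 17971200 :=
  Mdl.of_gen pr mdl0 simple (subGen_gen γ (gensW 3)) (subGen_sat (by
    rw [show Rf.map (substW (gensW 3)) = Rf by decide +kernel]; exact sR)) (j := 0) (sg_ne fun h0 => by
      have h1 : γ 0 = 1 := by
        rw [show wordAt (gensW 3) 0 = [2 * 0] from rfl, wprod_single] at h0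
        exact h0
      have h2 : ψ (gen2 2 211 52 Ms 0).val = ψ 1 := (congrArg Units.val h1).trans (map_one ψ).symm
      have h3 := (Matrix.reindexAlgEquiv (ZMod 2) (ZMod 2) eI.symm).injective h2
      rw [hc.2 0 (by norm_num)] at h3
      have h4 : ((Pk.ent 2 211 Ms (2 * 0) 0 1 : Nat) : ZMod 2) = (1 : Matrix (Fin 52) (Fin 52) (ZMod 2)) 0 1 :=
        congrFun (congrFun h3 0) 1
      rw [show Pk.ent 2 211 Ms (2 * 0) 0 1 = 1 by decide +kernel, Matrix.one_apply] at h4
      exact absurd h4 (by decide))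
theorem cG : Nat.card GG = 35942400 := by
  have := Cfsg.Agent.S1068.result (K := ZMod 2) (m := 0) (by simp)
  norm_num at this
  exact this
theorem idx : (XX.subgroupOf GG).index = 2 := by
  have := (XX.subgroupOf GG).index_mul_card
  rw [cG, Nat.card_congr (subgroupOfEquivOfLe le).toEquiv, mX.2.1] at this
  exact Nat.eq_of_mul_eq_mul_right (by norm_num : 0 < 17971200) (this.trans (by norm_num))
theorem comm2 {G : Type*} [Group G] {X K : Subgroup G} (le : X ≤ K) (idx : (X.subgroupOf K).index = 2)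
    (hp : ⁅X, X⁆ = X) : _root_.commutator K = X.subgroupOf K := by
  refine le_antisymm (commutator_le.2 fun x _ y _ => ?_) fun x hx => ?_
  · rw [commutatorElement_def, mul_mem_iff_of_index_two idx, mul_mem_iff_of_index_two idx,
      mul_mem_iff_of_index_two idx, inv_mem_iff, inv_mem_iff]
    tauto
  · have h : x.1 ∈ (_root_.commutator K).map K.subtype := by
      rw [map_subtype_commutator]
      exact commutator_mono le le (hp.ge hx)
    exact (mem_map_iff_mem K.subtype_injective).1 h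
theorem comm : _root_.commutator GG = XX.subgroupOf GG := comm2 le idx (perf sR)
theorem mT : Mdl TitsGroup 3 Rf 17971200 :=
  mX.congr ((subgroupOfEquivOfLe le).symm.trans (MulEquiv.subgroupCongr comm.symm))
theorem simpleT : IsSimpleGroup TitsGroup := (iso mT).elim fun e => have := simple; e.symm.isSimpleGroup
theorem perfT : _root_.commutator TitsGroup = ⊤ := Mdl.perf (G := TitsGroup) (H := G0) pr mdl0 perf0 mT
theorem nc2 {H : Type*} [Group H] {G : Subgroup H} (hs : IsSimpleGroup G) (h1 : _root_.commutator G = ⊤) :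
    ¬ IsMulCommutative G := fun h => by
  rw [(commutator_eq_bot_iff_center_eq_top _).2 (eq_top_iff.2 fun x _ => mem_center_iff.2 fun y => h.1.1 y x)] at h1
  exact bot_ne_top h1
theorem ncT : ¬ IsMulCommutative TitsGroup :=
  nc2 simpleT perfT

end CfsgH7.Tits
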