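import Cfsg.Agent.H7.Li.TitsD0
import Cfsg.Agent.H7.Li.TitsD1
import Cfsg.Agent.H7.Li.TitsD2
import Cfsg.Agent.H7.Li.TitsD3

set_option autoImplicit false
set_option maxRecDepth 100000

namespace CfsgH7.Tits

open Pk Subgroup Cfsg.Lie
open scoped commutatorElement

theorem hM (k : Nat) (hk : k < 2 * 17) : wordAt Ms k = pm 211 52 (Pk.ent 2 211 Ms k) := by
  rcases (by omega : (0 ≤ k ∧ k - 0 < 6) ∨ (6 ≤ k ∧ k - 6 < 6) ∨ (12 ≤ k ∧ k - 12 < 6) ∨ (18 ≤ k ∧ k - 18 < 6) ∨ (24 ≤ k ∧ k - 24 < 6) ∨ (30 ≤ k ∧ k - 30 < 4)) with ⟨a, b⟩ | ⟨a, b⟩ | ⟨a, b⟩ | ⟨a, b⟩ | ⟨a, b⟩ | ⟨a, b⟩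
  · exact Nat.add_sub_cancel' a ▸ h0 _ b
  · exact Nat.add_sub_cancel' a ▸ h6 _ b
  · exact Nat.add_sub_cancel' a ▸ h12 _ b
  · exact Nat.add_sub_cancel' a ▸ h18 _ b
  · exact Nat.add_sub_cancel' a ▸ h24 _ b
  · exact Nat.add_sub_cancel' a ▸ h30 _ b
theorem h0' : nall (fun k => one2 2 211 52 Ms I [2 * k, 2 * k + 1]) 17 = true := nall_iff.2 fun k hk => by
  interval_cases k
  exacts [i0, i1, i2, i3, i4, i5, i6, i7, i8, i9, i10, i11, i12, i13, i14, i15, i16]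
theorem lal {f : List Nat → Bool} {l : List (List Nat)} {n : Nat} (h0 : l.length = n) (h : ∀ j < n, f (wordAt l j) = true) :
    lall f l = true := lall_iff.2 fun x hx => by
  obtain ⟨j, hj, rfl⟩ := List.getElem_of_mem hx
  rw [← wordAt_getElem]; exact h j (h0 ▸ hj)
theorem r0 : lall (one2 2 211 52 Ms I) Rf = true := lal (n := 16) (by decide +kernel) fun k hk => by
  interval_cases k
  exacts [f0, f1, f2, f3, f4, f5, f6, f7, f8, f9, f10, f11, f12, f13, f14, f15]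
theorem r3 : lall (one2 2 211 52 Ms I) E = true := lal (n := 7) (by decide +kernel) fun k hk => by
  interval_cases k
  exacts [e0, e1, e2, e3, e4, e5, e6]
theorem lap {α : Type} {f : α → Bool} {l l' : List α} (h1 : lall f l = true) (h2 : lall f l' = true) :
    lall f (l ++ l') = true := lall_iff.2 fun x hx => (List.mem_append.1 hx).elim (lall_iff.1 h1 x) (lall_iff.1 h2 x)
theorem hc : Sat (gen2 2 211 52 Ms) (Rf ++ E) ∧ ∀ k < 17,
    (gen2 2 211 52 Ms k : Matrix (Fin 52) (Fin 52) (ZMod 2)) = toM 2 52 (Pk.ent 2 211 Ms (2 * k)) :=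
  sat2 (I := I) (by norm_num) (by norm_num) (by norm_num) hM (by decide +kernel) h0' (by decide +kernel)
    (lap r0 r3)

end CfsgH7.Tits
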