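import Cfsg.Agent.H7.Li.TitsL
import Cfsg.Agent.H7.Cls
import Cfsg.Agent.H7.Xs
import Cfsg.Agent.H7.No2

/-! No doubly transitive action of the Tits group. -/

set_option autoImplicit false
set_option maxRecDepth 100000

namespace CfsgH7.Tits

open Subgroup Cfsg.Lie

def sS : List (List Nat) := [[0,0,3,0,3,0,2,0,2,1],[3,1,1,3,0,3,0,0,3,0],[2,2]]
theorem sP : Pc (fun j => wprod g0 (wordAt sS j)) 3 sS.length :=
  M0.pc [[],[],[]] [[], [[2,4,4]], [[4],[4]]] (by decide +kernel) (M0.ge sS [⟨0, [[0],[2]], [0,1,0,1,0,1,0], 27⟩] 11 (by decide +kernel))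
def sRp : List (List Nat) := [[1,2,0,2,0,3,0,3,0,0,2]]
noncomputable def sT : Ct := (.cons (.cons (.cons .pw (.cons (.rep [2,0,3,0,3,4,0,3,4,0,4,3,1] 0) (.cons (.rep [1,1,2,1,3,4,0,2,4,1,1,1,2,1] 0) .nil))) (.cons (.one [[0],[0,0]] [[],[]] (.rep [1,4,1,3,1,4,2,4,0,4,1,4] 0)) (.cons (.one [[0,0],[0]] [[],[]] (.rep [1,4,1,3,1,2,4,3,4,0,4,1] 0)) .nil))) (.cons (.cons (.one [[2,2],[2]] [[],[]] (.rep [1,1,4,2,0,2,4,1,2,4,0,3,4,0] 0)) (.cons (.one [[2,2],[2]] [[],[]] (.rep [0,0,4,2,4,1,3,1,3,4,0,2,1] 0)) (.cons (.one [[2,2],[2]] [[],[]] (.rep [1,2,0,3,1,2,0,4,0,2,1,4] 0)) .nil))) (.cons (.cons (.one [[2],[2,2]] [[],[]] (.rep [1,4,2,1,1,4,3,1,2,0,4,3,0,3] 0)) (.cons (.one [[2],[2,2]] [[],[]] (.rep [2,4,3,0,0,4,3,1,2,0,4,3] 0)) (.cons (.one [[2],[2,2]] [[],[]] (.rep [0,4,1,1,4,3,1,4,3,0,2] 0)) .nil))) .nil)))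
theorem sK (y : G0) (hy : y ^ 3 = 1) (h1 : y ≠ 1) : ∃ r ∈ sRp, IsConj y (wprod g0 r) :=
  M0.cl1 sP (by norm_num) (by decide) _ sT (by decide +kernel) y hy h1
theorem z3 (y : G0) (hy : y ∈ Tl (fun j => wprod g0 (wordAt sS j)) 0) : y ^ 3 = 1 := by
  have := M0.fin
  obtain ⟨w, hw, rfl⟩ := sP.nf (by norm_num) 3 (i := 0) (by decide) hy
  rw [← wprod_substW]
  exact M0.pow (lall_iff.1 (show lall (fun w => fixesP l (powA (substW sS w) 3 []) bs) (nfl 3 3 0) = true by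
    decide +kernel) w hw)
theorem no2 {Ω : Type*} [Fintype Ω] [MulAction TitsGroup Ω] [FaithfulSMul TitsGroup Ω] (hΩ : 3 ≤ Fintype.card Ω) :
    ¬ MulAction.IsMultiplyPretransitive TitsGroup Ω 2 := by
  obtain ⟨e⟩ := iso mT
  have := M0.fin
  have := mT.1
  have : Fact (Nat.Prime 13) := ⟨by norm_num⟩
  refine no2t mT.2.1 ((Tl (fun j => wprod g0 (wordAt sS j)) 0).map e.toMonoidHom)
    ((card_map_of_injective e.injective).trans (sP.card (by norm_num))) (z := e (wprod g0 [1,2,0,2,0,3,0,3,0,0,2])) (x := e (wprod g0 [0]))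
    ?_ (fun h => M0.ne 0 (by decide +kernel) (e.map_eq_one_iff.1 h)) ((e.orderOf_eq _).trans
      (orderOf_eq_prime (M0.pow (by decide +kernel)) (M0.ne 0 (by decide +kernel)))) ?_ hΩ
  · rintro _ ⟨y, hy, rfl⟩ h1
    obtain ⟨r, hr, h⟩ := sK y (z3 y hy) fun h => h1 (by rw [h, map_one])
    rw [List.mem_singleton.1 hr] at h
    exact e.toMonoidHom.map_isConj h
  · rw [← map_pow, ← map_mul, ← map_mul, ← wprod_wpow, ← wprod_append, ← wprod_append]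
    exact congrArg _ (M0.eq (by decide +kernel))

end CfsgH7.Tits
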